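import Cfsg.Agent.LieClassical.OrthCore

/-!
# Orthogonal bases (helper292)
-/

set_option autoImplicit false
set_option linter.unusedSectionVars false

namespace Cfsg.Agent.H292.O8R

open Module QuadraticMap Cfsg.Agent.LieClassical.OrthCore

variable {K V : Type*} [Field K] [AddCommGroup V] [Module K V] {Q : QuadraticForm K V}

section Basis

variable {ι : Type*} [Fintype ι]

theorem Q_sum_smul [DecidableEq ι] (x : ι → V) (hx : ∀ i j, i ≠ j → polar Q (x i) (x j) = 0) (f : ι → K) (s : Finset ι) :
    Q (∑ i ∈ s, f i • x i) = ∑ i ∈ s, f i ^ 2 * Q (x i) := by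
  induction s using Finset.induction_on with
  | empty => simp
  | insert a s ha ih =>
    rw [Finset.sum_insert ha, Finset.sum_insert ha, Q_add, ih, QuadraticMap.map_smul]
    have h : polar Q (f a • x a) (∑ i ∈ s, f i • x i) = 0 := by
      have h1 : ∀ t : Finset ι, a ∉ t → polar Q (f a • x a) (∑ i ∈ t, f i • x i) = 0 := by
        intro t
        induction t using Finset.induction_on with
        | empty => intro _; simp [polar_zero_right]
        | insert c t hc ih2 =>
          intro hat
          rw [Finset.sum_insert hc, polar_add_right, ih2 (fun h => hat (Finset.mem_insert_of_mem h)), polar_smul_left,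
            polar_smul_right, hx a c (fun h => hat (h ▸ Finset.mem_insert_self _ _))]
          simp
      exact h1 s ha
    rw [h]
    simp only [smul_eq_mul]
    ring

/-- `b` is an orthogonal basis with norms `a` -/
structure OB (Q : QuadraticForm K V) (b : Basis ι K V) (a : ι → K) : Prop where
  nrm : ∀ i, Q (b i) = a i
  orth : ∀ i j, i ≠ j → polar Q (b i) (b j) = 0

variable {b : Basis ι K V} {a : ι → K}

theorem OB.Q_eq (h : OB Q b a) (v : V) : Q v = ∑ i, (b.repr v i) ^ 2 * a i := by
  classical
  conv_lhs => rw [← b.sum_repr v]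
  rw [Q_sum_smul b h.orth]
  simp only [h.nrm]

/-- an isometry permuting the basis -/
theorem OB.perm_mem (h : OB Q b a) (σ : Equiv.Perm ι) (hσ : ∀ i, a (σ i) = a i) : b.equiv b σ ∈ O Q := by
  intro v
  have h1 : ∀ i, b.repr (b.equiv b σ v) (σ i) = b.repr v i := by
    intro i
    have h2 : (b.reindex σ.symm).repr (b.equiv b σ v) = b.repr v := LinearEquiv.apply_symm_apply _ _
    have h3 := DFunLike.congr_fun h2 i
    rwa [Basis.repr_reindex_apply, Equiv.symm_symm] at h3
  rw [h.Q_eq, h.Q_eq v, ← Equiv.sum_comp σ]
  refine Finset.sum_congr rfl fun i _ => ?_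
  rw [h1, hσ]

theorem OB.polar_eq_zero (h : OB Q b a) {i : ι} {x : V} (hx : b.repr x i = 0) : polar Q x (b i) = 0 := by
  classical
  have h1 : ∀ s : Finset ι, polar Q (∑ k ∈ s, b.repr x k • b k) (b i) = 0 := by
    intro s
    induction s using Finset.induction_on with
    | empty => simp [polar_zero_left]
    | insert c t hc ih =>
      rw [Finset.sum_insert hc, polar_add_left, ih, polar_smul_left, add_zero]
      by_cases hci : c = i
      · subst hci
        rw [hx, zero_smul]
      · rw [h.orth c i hci, smul_zero]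
  conv_lhs => rw [← b.sum_repr x]
  exact h1 Finset.univ

theorem OB.polar_eq (h : OB Q b a) (i : ι) (x : V) : polar Q x (b i) = 2 * a i * b.repr x i := by
  have h1 : b.repr (x - b.repr x i • b i) i = 0 := by simp
  have h2 := h.polar_eq_zero h1
  rw [polar_sub_left, polar_smul_left, polar_self', h.nrm, sub_eq_zero] at h2
  rw [h2, smul_eq_mul]
  ring

theorem OB.repr_eq_zero (h : OB Q b a) (h2 : (2 : K) ≠ 0) {i : ι} (hi : a i ≠ 0) {x : V} (hx : polar Q x (b i) = 0) :
    b.repr x i = 0 := by
  rw [h.polar_eq] at hx
  exact (mul_eq_zero.1 hx).resolve_left (mul_ne_zero h2 hi)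

/-- orthogonal vectors of nonzero norm form a basis -/
theorem exists_OB (h2 : (2 : K) ≠ 0) [FiniteDimensional K V] {v : ι → V} {a : ι → K} (h0 : ∀ i, a i ≠ 0) (hv : ∀ i, Q (v i) = a i)
    (ho : ∀ i j, i ≠ j → polar Q (v i) (v j) = 0) (hc : Fintype.card ι = finrank K V) :
    ∃ b : Basis ι K V, (∀ i, b i = v i) ∧ OB Q b a := by
  classical
  have hl : LinearIndependent K v := by
    rw [Fintype.linearIndependent_iff]
    intro c hc0 k
    have h1 : ∀ s : Finset ι, polar Q (∑ i ∈ s, c i • v i) (v k) = if k ∈ s then 2 * a k * c k else 0 := by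
      intro s
      induction s using Finset.induction_on with
      | empty => simp [polar_zero_left]
      | insert i s hi ih =>
        rw [Finset.sum_insert hi, polar_add_left, ih, polar_smul_left, smul_eq_mul]
        by_cases hik : i = k
        · subst hik
          rw [polar_self', hv, if_neg hi, if_pos (Finset.mem_insert_self _ _)]
          ring
        · rw [ho i k hik, mul_zero, zero_add]
          have : k ∈ insert i s ↔ k ∈ s := by simp [Ne.symm hik]
          simp only [this]
    have h3 := h1 Finset.univ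
    rw [hc0, polar_zero_left, if_pos (Finset.mem_univ _)] at h3
    exact (mul_eq_zero.1 h3.symm).resolve_left (mul_ne_zero h2 (h0 k))
  have hn : Nonempty ι ∨ IsEmpty ι := (isEmpty_or_nonempty ι).symm
  rcases hn with hn | hn
  · refine ⟨basisOfLinearIndependentOfCardEqFinrank hl hc, fun i => ?_, ?_, ?_⟩
    · simp
    · intro i; simp [hv]
    · intro i j hij; simp [ho i j hij]
  · have h3 : finrank K V = 0 := by rw [← hc]; exact Fintype.card_eq_zero
    have : Subsingleton V := finrank_zero_iff.1 h3
    exact ⟨Basis.empty V, fun i => isEmptyElim i, fun i => isEmptyElim i, fun i => isEmptyElim i⟩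

end Basis

theorem equiv_apply' {ι : Type*} (b : Basis ι K V) (σ : Equiv.Perm ι) (i : ι) : b.equiv b σ (b i) = b (σ i) := b.equiv_apply i b σ

theorem equiv_mul {ι : Type*} (b : Basis ι K V) (σ τ : Equiv.Perm ι) : b.equiv b (σ * τ) = b.equiv b σ * b.equiv b τ := by
  refine LinearEquiv.toLinearMap_injective (b.ext fun i => ?_)
  show b.equiv b (σ * τ) (b i) = b.equiv b σ (b.equiv b τ (b i))
  rw [equiv_apply', equiv_apply', equiv_apply']
  rfl

theorem equiv_one {ι : Type*} (b : Basis ι K V) : b.equiv b (1 : Equiv.Perm ι) = 1 := by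
  refine LinearEquiv.toLinearMap_injective (b.ext fun i => ?_)
  show b.equiv b 1 (b i) = b i
  rw [equiv_apply']
  rfl

theorem equiv_pow {ι : Type*} (b : Basis ι K V) (σ : Equiv.Perm ι) (n : ℕ) : (b.equiv b σ) ^ n = b.equiv b (σ ^ n) := by
  induction n with
  | zero => rw [pow_zero, pow_zero, equiv_one]
  | succ n ih => rw [pow_succ, pow_succ, ih, equiv_mul]

end Cfsg.Agent.H292.O8R
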