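import Cfsg.Agent.H466.O8R.Om
import Cfsg.Agent.H292.O8R.OB
import Cfsg.Agent.S0306

/-!
# S3691, row `PΩ⁺₈(q)`, box `data_om`: the rotations (helper292)

`V` with an orthogonal basis: permutations of the basis, the rotations of an anisotropic plane, and the rotation data of `Ω₇(q)`.
-/

set_option autoImplicit false
set_option linter.unusedSectionVars false

namespace Cfsg.Agent.H292.O8R

open Module QuadraticMap Cfsg.Agent.LieClassical.OrthCore Cfsg.Agent.H466.O8R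

variable {K V : Type*} [Field K] [AddCommGroup V] [Module K V] {Q : QuadraticForm K V}


/-! ### The rotations of an anisotropic plane -/

section Torus

open QuadraticAlgebra

variable {ι : Type*} [Fintype ι] (b : Basis ι K V) (i j : ι) (β : K)

/-- the projection to the plane -/
noncomputable def pr : V →ₗ[K] QuadraticAlgebra K (-β) (0 : K) where
  toFun v := ⟨b.repr v i, b.repr v j⟩
  map_add' x y := by ext <;> simp
  map_smul' c x := by ext <;> simp

/-- the inclusion of the plane -/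
noncomputable def inc : QuadraticAlgebra K (-β) (0 : K) →ₗ[K] V where
  toFun z := z.re • b i + z.im • b j
  map_add' x y := by simp only [re_add, im_add, add_smul]; abel
  map_smul' c x := by simp only [re_smul, im_smul, RingHom.id_apply, smul_eq_mul, mul_smul, smul_add]

variable {i j β}

theorem inc_apply (z : QuadraticAlgebra K (-β) (0 : K)) : inc b i j β z = z.re • b i + z.im • b j := rfl

theorem pr_apply (v : V) : pr b i j β v = ⟨b.repr v i, b.repr v j⟩ := rfl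

theorem pr_inc (hij : i ≠ j) (z : QuadraticAlgebra K (-β) (0 : K)) : pr b i j β (inc b i j β z) = z := by
  rw [inc_apply, pr_apply]
  ext <;> simp [hij, hij.symm]

/-- `v ↦ v + (u - 1) v` on the plane -/
noncomputable def rotE (i j : ι) (β : K) (u : QuadraticAlgebra K (-β) (0 : K)) : V →ₗ[K] V :=
  LinearMap.id + (inc b i j β).comp ((LinearMap.mulLeft K (u - 1)).comp (pr b i j β))

theorem rotE_apply (u : QuadraticAlgebra K (-β) (0 : K)) (v : V) :
    rotE b i j β u v = v + inc b i j β ((u - 1) * pr b i j β v) := rfl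

theorem rotE_one : rotE b i j β 1 = 1 := by
  refine LinearMap.ext fun v => ?_
  rw [rotE_apply, sub_self, zero_mul, map_zero, add_zero]
  rfl

theorem rotE_mul (hij : i ≠ j) (u w : QuadraticAlgebra K (-β) (0 : K)) :
    rotE b i j β (u * w) = rotE b i j β u * rotE b i j β w := by
  refine LinearMap.ext fun v => ?_
  rw [Module.End.mul_apply, rotE_apply, rotE_apply, rotE_apply, map_add, pr_inc b hij, add_assoc, ← map_add]
  congr 2
  ring

/-- the rotations of the plane spanned by `b i`, `b j` -/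
noncomputable def rotU (hij : i ≠ j) : (QuadraticAlgebra K (-β) (0 : K))ˣ →* (V ≃ₗ[K] V) :=
  (LinearMap.GeneralLinearGroup.generalLinearEquiv K V).toMonoidHom.comp
    (Units.map { toFun := rotE b i j β, map_one' := rotE_one b, map_mul' := rotE_mul b hij })

theorem rotU_apply (hij : i ≠ j) (u : (QuadraticAlgebra K (-β) (0 : K))ˣ) (v : V) :
    rotU b hij u v = v + inc b i j β (((u : QuadraticAlgebra K (-β) (0 : K)) - 1) * pr b i j β v) := rfl

theorem rotU_inj (hij : i ≠ j) : Function.Injective (rotU b (β := β) hij) := by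
  rw [injective_iff_map_eq_one]
  intro u hu
  have h1 : rotU b hij u (b i) = b i := by rw [hu]; rfl
  rw [rotU_apply] at h1
  have h2 := add_eq_left.1 h1
  have h3 := congrArg (pr b i j β) h2
  rw [pr_inc b hij, map_zero] at h3
  have h4 : pr b i j β (b i) = 1 := by
    rw [pr_apply]
    ext <;> simp [hij]
  rw [h4, mul_one, sub_eq_zero] at h3
  exact Units.ext h3

theorem rotU_fix (hij : i ≠ j) (u : (QuadraticAlgebra K (-β) (0 : K))ˣ) {v : V} (h1 : b.repr v i = 0) (h2 : b.repr v j = 0) :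
    rotU b hij u v = v := by
  rw [rotU_apply, pr_apply, h1, h2]
  have : (⟨0, 0⟩ : QuadraticAlgebra K (-β) (0 : K)) = 0 := rfl
  rw [this, mul_zero, map_zero, add_zero]

theorem rotU_mem {a : ι → K} (h : OB Q b a) (hij : i ≠ j) (hi : a i = 1) (hj : a j = β) (u : (QuadraticAlgebra K (-β) (0 : K))ˣ)
    (hu : norm (u : QuadraticAlgebra K (-β) (0 : K)) = 1) : rotU b hij u ∈ O Q := by
  intro v
  have hinc : ∀ z : QuadraticAlgebra K (-β) (0 : K), Q (inc b i j β z) = norm z := by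
    intro z
    rw [inc_apply, Q_add, QuadraticMap.map_smul, QuadraticMap.map_smul, polar_smul_left, polar_smul_right, h.orth i j hij, h.nrm, h.nrm,
      hi, hj, norm_def]
    simp only [smul_eq_mul]
    ring
  have hort : ∀ z : QuadraticAlgebra K (-β) (0 : K), polar Q (v - inc b i j β (pr b i j β v)) (inc b i j β z) = 0 := by
    intro z
    have e1 : b.repr (v - inc b i j β (pr b i j β v)) i = 0 := by
      have := congrArg QuadraticAlgebra.re (pr_inc b hij (pr b i j β v))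
      rw [map_sub, Finsupp.sub_apply]
      exact sub_eq_zero.2 this.symm
    have e2 : b.repr (v - inc b i j β (pr b i j β v)) j = 0 := by
      have := congrArg QuadraticAlgebra.im (pr_inc b hij (pr b i j β v))
      rw [map_sub, Finsupp.sub_apply]
      exact sub_eq_zero.2 this.symm
    rw [inc_apply b z, polar_add_right, polar_smul_right, polar_smul_right, h.polar_eq_zero e1, h.polar_eq_zero e2]
    simp
  have h1 : v = (v - inc b i j β (pr b i j β v)) + inc b i j β (pr b i j β v) := by abel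
  have h2 : rotU b hij u v = (v - inc b i j β (pr b i j β v)) +
      inc b i j β ((u : QuadraticAlgebra K (-β) (0 : K)) * pr b i j β v) := by
    rw [rotU_apply, sub_mul, one_mul, map_sub]
    abel
  rw [h2, Q_add, hort, hinc, map_mul, hu, one_mul, add_zero]
  conv_rhs => rw [h1, Q_add, hort, hinc, add_zero]

theorem refl_eq {a : ι → K} (h : OB Q b a) (hQj : Q (b j) ≠ 0) (v : V) :
    refl Q (b j) hQj v = v - (2 * b.repr v j) • b j := by
  rw [refl_apply]
  congr 2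
  rw [polar_comm, h.polar_eq, h.nrm]
  have : a j ≠ 0 := by rw [← h.nrm]; exact hQj
  field_simp

theorem pr_refl {a : ι → K} (h : OB Q b a) (hij : i ≠ j) (hQj : Q (b j) ≠ 0) (v : V) :
    pr b i j β (refl Q (b j) hQj v) = star (pr b i j β v) := by
  rw [refl_eq b h, pr_apply, pr_apply]
  ext
  · simp [hij.symm]
  · simp
    ring

theorem refl_inc {a : ι → K} (h : OB Q b a) (hij : i ≠ j) (hQj : Q (b j) ≠ 0) (z : QuadraticAlgebra K (-β) (0 : K)) :
    refl Q (b j) hQj (inc b i j β z) = inc b i j β (star z) := by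
  have h3 := congrArg QuadraticAlgebra.im (pr_inc b hij z)
  rw [refl_eq b h, inc_apply, inc_apply]
  have h4 : b.repr (z.re • b i + z.im • b j) j = z.im := h3
  rw [h4, add_sub_assoc, ← sub_smul]
  congr 1
  · simp
  · congr 1
    simp
    ring

theorem rotU_refl {a : ι → K} (h : OB Q b a) (hij : i ≠ j) (hQj : Q (b j) ≠ 0) (u w : (QuadraticAlgebra K (-β) (0 : K))ˣ)
    (hw : (w : QuadraticAlgebra K (-β) (0 : K)) = star (u : QuadraticAlgebra K (-β) (0 : K))) (v : V) :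
    refl Q (b j) hQj (rotU b hij u (refl Q (b j) hQj v)) = rotU b hij w v := by
  have h6 : refl Q (b j) hQj (refl Q (b j) hQj v) = v := reflLin_reflLin hQj v
  rw [rotU_apply, rotU_apply, map_add, h6, pr_refl b h hij, refl_inc b h hij, hw, star_mul', star_star, star_sub, star_one]

theorem inv_eq_star (u : (QuadraticAlgebra K (-β) (0 : K))ˣ) (hu : norm (u : QuadraticAlgebra K (-β) (0 : K)) = 1) :
    ((u⁻¹ : (QuadraticAlgebra K (-β) (0 : K))ˣ) : QuadraticAlgebra K (-β) (0 : K)) = star (u : QuadraticAlgebra K (-β) (0 : K)) := by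
  refine Units.inv_eq_of_mul_eq_one_right ?_
  rw [← algebraMap_norm_eq_mul_star, hu, map_one]

theorem rotU_conj {a : ι → K} (h : OB Q b a) (hij : i ≠ j) (hQj : Q (b j) ≠ 0) (u : (QuadraticAlgebra K (-β) (0 : K))ˣ)
    (hu : norm (u : QuadraticAlgebra K (-β) (0 : K)) = 1) :
    refl Q (b j) hQj * rotU b hij u * (refl Q (b j) hQj)⁻¹ = (rotU b hij u)⁻¹ := by
  rw [refl_inv, ← map_inv]
  exact LinearEquiv.ext fun v => rotU_refl b h hij hQj u _ (inv_eq_star u hu) v

/-- the norm one group has order `q + 1` -/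
theorem exists_unit [Fintype K] (hβ : ∀ x y : K, x ^ 2 + β * y ^ 2 = 0 → x = 0 ∧ y = 0) :
    ∃ u : (QuadraticAlgebra K (-β) (0 : K))ˣ, norm (u : QuadraticAlgebra K (-β) (0 : K)) = 1 ∧ orderOf u = Fintype.card K + 1 := by
  have : Fact (∀ r : K, r ^ 2 ≠ -β + (0 : K) * r) := by
    refine ⟨fun r hr => ?_⟩
    exact one_ne_zero (hβ r 1 (by linear_combination hr)).2
  have : Finite (QuadraticAlgebra K (-β) (0 : K)) := Module.finite_of_finite K
  have hc := Cfsg.Agent.S0306.card_ker (F := K) (a := 0) (b := β)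
  obtain ⟨g, hg⟩ := (inferInstance : IsCyclic (Units.map (QuadraticAlgebra.norm : QuadraticAlgebra K (-β) (0 : K) →* K)).ker).exists_ofOrder_eq_natCard
  exact ⟨g, congrArg Units.val (MonoidHom.mem_ker.1 g.2), by rw [Subgroup.orderOf_coe, hg, hc]⟩

/-- a rotation of order `q + 1`, inverted by an isometry -/
theorem exists_tau [Fintype K] (h2 : (2 : K) ≠ 0) {a : ι → K} (h : OB Q b a) (hij : i ≠ j) (hi : a i = 1) (hj : a j = β)
    (hβ : ∀ x y : K, x ^ 2 + β * y ^ 2 = 0 → x = 0 ∧ y = 0) :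
    ∃ τ ∈ O Q, ∃ s ∈ O Q, orderOf τ = Fintype.card K + 1 ∧ s * τ * s⁻¹ = τ⁻¹ ∧
      (∀ v, polar Q v (b i) = 0 → polar Q v (b j) = 0 → τ v = v) ∧
      (∀ v, polar Q v (b i) = 0 → polar Q v (b j) = 0 → s v = v) := by
  have hβ0 : β ≠ 0 := by
    intro h0
    exact one_ne_zero (hβ 0 1 (by rw [h0]; ring)).2
  have hQj : Q (b j) ≠ 0 := by rw [h.nrm, hj]; exact hβ0
  obtain ⟨u, hu, huo⟩ := exists_unit hβ
  refine ⟨rotU b hij u, rotU_mem b h hij hi hj u hu, refl Q (b j) hQj, refl_mem_O hQj, ?_, rotU_conj b h hij hQj u hu,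
    fun v e1 e2 => ?_, fun v _ e2 => ?_⟩
  · rw [orderOf_injective _ (rotU_inj b hij), huo]
  · exact rotU_fix b hij _ (h.repr_eq_zero h2 (by rw [hi]; exact one_ne_zero) e1) (h.repr_eq_zero h2 (by rw [hj]; exact hβ0) e2)
  · rw [refl_eq b h, h.repr_eq_zero h2 (by rw [hj]; exact hβ0) e2]
    simp

end Torus

/-! ### The rotation data of a seven dimensional space -/

section Seven

variable {b : Basis (Fin 3 ⊕ Fin 3 ⊕ Unit) K V} {β γ : K}

/-- the norms `1, 1, 1, β, β, β, γ` -/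
def nm (β γ : K) : Fin 3 ⊕ Fin 3 ⊕ Unit → K
  | .inl _ => 1
  | .inr (.inl _) => β
  | .inr (.inr _) => γ

/-- the plane spanned by `b (inl i)`, `b (inr (inl i))` -/
def Pl (b : Basis (Fin 3 ⊕ Fin 3 ⊕ Unit) K V) (i : Fin 3) : Submodule K V := Submodule.span K {b (.inl i), b (.inr (.inl i))}

/-- the orthogonal complement -/
def Pc (Q : QuadraticForm K V) (b : Basis (Fin 3 ⊕ Fin 3 ⊕ Unit) K V) (i : Fin 3) : Submodule K V where
  carrier := {x | polar Q x (b (.inl i)) = 0 ∧ polar Q x (b (.inr (.inl i))) = 0}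
  add_mem' {x y} hx hy := by
    constructor
    · rw [polar_add_left, hx.1, hy.1, add_zero]
    · rw [polar_add_left, hx.2, hy.2, add_zero]
  zero_mem' := ⟨polar_zero_left _ _, polar_zero_left _ _⟩
  smul_mem' c x hx := by
    constructor
    · rw [polar_smul_left, hx.1, smul_zero]
    · rw [polar_smul_left, hx.2, smul_zero]

theorem mem_Pc {i : Fin 3} {x : V} : x ∈ Pc Q b i ↔ polar Q x (b (.inl i)) = 0 ∧ polar Q x (b (.inr (.inl i))) = 0 := Iff.rfl

theorem nm_ne (hβ : β ≠ 0) (hγ : γ ≠ 0) (k : Fin 3 ⊕ Fin 3 ⊕ Unit) : nm β γ k ≠ 0 := by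
  rcases k with k | k | k
  · exact one_ne_zero
  · exact hβ
  · exact hγ

theorem mem_Pl_of (h : OB Q b (nm β γ)) (h2 : (2 : K) ≠ 0) (hβ : β ≠ 0) (hγ : γ ≠ 0) {i : Fin 3} {x : V}
    (hx : ∀ y ∈ Pc Q b i, polar Q x y = 0) : x ∈ Pl b i := by
  rw [← b.sum_repr x]
  refine Submodule.sum_mem _ fun k _ => ?_
  by_cases hk : k = .inl i
  · subst hk
    exact Submodule.smul_mem _ _ (Submodule.subset_span (Set.mem_insert _ _))
  by_cases hk2 : k = .inr (.inl i)
  · subst hk2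
    exact Submodule.smul_mem _ _ (Submodule.subset_span (Set.mem_insert_of_mem _ rfl))
  have h3 : b.repr x k = 0 := h.repr_eq_zero h2 (nm_ne hβ hγ k) (hx _ ⟨h.orth _ _ hk, h.orth _ _ hk2⟩)
  rw [h3, zero_smul]
  exact Submodule.zero_mem _

theorem polar_of_mem {i : Fin 3} {x y : V} (hx : x ∈ Pl b i) (hy : y ∈ Pc Q b i) : polar Q x y = 0 := by
  obtain ⟨c, d, rfl⟩ := Submodule.mem_span_pair.1 hx
  rw [polar_comm, polar_add_right, polar_smul_right, polar_smul_right, hy.1, hy.2]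
  simp

theorem sup_eq_top (h : OB Q b (nm β γ)) (i : Fin 3) : Pl b i ⊔ Pc Q b i = ⊤ := by
  rw [eq_top_iff]
  intro x _
  rw [← b.sum_repr x]
  refine Submodule.sum_mem _ fun k _ => Submodule.smul_mem _ _ ?_
  by_cases hk : k = .inl i
  · subst hk
    exact Submodule.mem_sup_left (Submodule.subset_span (Set.mem_insert _ _))
  by_cases hk2 : k = .inr (.inl i)
  · subst hk2
    exact Submodule.mem_sup_left (Submodule.subset_span (Set.mem_insert_of_mem _ rfl))
  exact Submodule.mem_sup_right ⟨h.orth _ _ hk, h.orth _ _ hk2⟩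

theorem comm_of_PW (h : OB Q b (nm β γ)) (h2 : (2 : K) ≠ 0) (hβ : β ≠ 0) (hγ : γ ≠ 0) {i : Fin 3} {x t : V ≃ₗ[K] V}
    (hx : x ∈ PW Q (Pl b i)) (ht : t ∈ PW Q (Pc Q b i)) : x * t = t * x := by
  refine PW_comm (sup_eq_top h i) hx ht (fun y hy => ?_) (fun p hp => ?_)
  · constructor
    · have := polar_map (mem_PW.1 hx).1 y (b (.inl i))
      rw [(mem_PW.1 hx).2 _ (Submodule.subset_span (Set.mem_insert _ _))] at this
      rw [this, hy.1]
    · have := polar_map (mem_PW.1 hx).1 y (b (.inr (.inl i)))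
      rw [(mem_PW.1 hx).2 _ (Submodule.subset_span (Set.mem_insert_of_mem _ rfl))] at this
      rw [this, hy.2]
  · refine mem_Pl_of h h2 hβ hγ fun y hy => ?_
    have := polar_map (mem_PW.1 ht).1 p y
    rw [(mem_PW.1 ht).2 y hy] at this
    rw [this, polar_of_mem hp hy]

/-- the 3-cycle of the planes -/
def cyc : Equiv.Perm (Fin 3 ⊕ Fin 3 ⊕ Unit) :=
  Equiv.sumCongr (finRotate 3) (Equiv.sumCongr (finRotate 3) (Equiv.refl Unit))

theorem cyc_pow : cyc ^ 3 = 1 := by decide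

theorem cyc_inl (i : Fin 3) (k : Fin 3) : (cyc ^ (i : ℕ)) (.inl k) = .inl (k + i) := by
  revert i k; decide

theorem cyc_inr (i : Fin 3) (k : Fin 3) : (cyc ^ (i : ℕ)) (.inr (.inl k)) = .inr (.inl (k + i)) := by
  revert i k; decide

theorem nm_cyc (k : Fin 3 ⊕ Fin 3 ⊕ Unit) : nm β γ (cyc k) = nm β γ k := by
  rcases k with k | k | k <;> rfl

/-- **the rotation data** -/
theorem rot_seven [Fintype K] (hodd : Odd (Fintype.card K)) (h16 : 16 ≤ Fintype.card K) {n : ℕ}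
    (hn : n * Nat.gcd 2 (Fintype.card K - 1) = Fintype.card K + 1) (h : OB Q b (nm β γ)) (hγ : γ ≠ 0)
    (hβ : ∀ x y : K, x ^ 2 + β * y ^ 2 = 0 → x = 0 ∧ y = 0) :
    ∃ (t : Fin 3 → V ≃ₗ[K] V) (c : V ≃ₗ[K] V), c ∈ O Q ∧ c ^ 3 = 1 ∧
      (∀ i k, (c ^ ((i : Fin 3) : ℕ)) (b (.inl k)) = b (.inl (k + i))) ∧
      (∀ i k, (c ^ ((i : Fin 3) : ℕ)) (b (.inr (.inl k))) = b (.inr (.inl (k + i)))) ∧
      (∀ i, t i = c ^ (i : ℕ) * t 0 * (c ^ (i : ℕ))⁻¹) ∧
      (∀ i : Fin 3, Om Q (Pl b i) = (Om Q (Pl b 0)).map (MulAut.conj (c ^ (i : ℕ))).toMonoidHom) ∧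
      (∀ i, t i ^ n = 1) ∧ (∀ i, t i ^ 2 ≠ 1) ∧
      (∀ i, ∀ x ∈ PW Q (Pl b i), x * t i = t i * x) ∧
      (∀ i (X : Submodule K V), X ≤ Pc Q b i → t i ∈ Om Q X) ∧
      (∀ i j, i ≠ j → t j ∈ Om Q (Pl b i)) := by
  have h2 : (2 : K) ≠ 0 := by
    intro h0
    have h1 : ringChar K = 2 := by
      have := CharTwo.of_one_ne_zero_of_two_eq_zero (R := K) one_ne_zero h0
      exact ringChar.eq K 2
    have := FiniteField.even_card_iff_char_two.1 h1
    rw [Nat.odd_iff] at hodd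
    omega
  have hβ0 : β ≠ 0 := by
    intro h0
    exact one_ne_zero (hβ 0 1 (by rw [h0]; ring)).2
  obtain ⟨τ, hτ, s, hs, hτo, hsτ, hτf, hsf⟩ := exists_tau b h2 h (i := .inl 0) (j := .inr (.inl 0)) (by simp) rfl rfl hβ
  have hgcd : Nat.gcd 2 (Fintype.card K - 1) = 2 := by
    obtain ⟨k, hk⟩ := hodd
    rw [hk]
    simp
  rw [hgcd] at hn
  set c := b.equiv b cyc with hc
  have hcO : c ∈ O Q := h.perm_mem cyc nm_cyc
  have hcO' : ∀ k : ℕ, c ^ k ∈ O Q := fun k => (O Q).pow_mem hcO k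
  have hcl : ∀ i k, (c ^ ((i : Fin 3) : ℕ)) (b (.inl k)) = b (.inl (k + i)) := by
    intro i k
    rw [hc, equiv_pow, equiv_apply', cyc_inl]
  have hcr : ∀ i k, (c ^ ((i : Fin 3) : ℕ)) (b (.inr (.inl k))) = b (.inr (.inl (k + i))) := by
    intro i k
    rw [hc, equiv_pow, equiv_apply', cyc_inr]
  have hPc : ∀ (i : Fin 3) x, x ∈ Pc Q b i → (c ^ (i : ℕ))⁻¹ x ∈ Pc Q b 0 := by
    intro i x hx
    have hgO := (O Q).inv_mem (hcO' i)
    have e1 : (c ^ (i : ℕ))⁻¹ (b (.inl i)) = b (.inl 0) := by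
      have := hcl i 0
      rw [zero_add] at this
      rw [← this]
      exact (c ^ (i : ℕ)).symm_apply_apply _
    have e2 : (c ^ (i : ℕ))⁻¹ (b (.inr (.inl i))) = b (.inr (.inl 0)) := by
      have := hcr i 0
      rw [zero_add] at this
      rw [← this]
      exact (c ^ (i : ℕ)).symm_apply_apply _
    constructor
    · rw [← e1, polar_map hgO, hx.1]
    · rw [← e2, polar_map hgO, hx.2]
  have hfix : ∀ (u : V ≃ₗ[K] V), u ∈ O Q → (∀ v, polar Q v (b (.inl 0)) = 0 → polar Q v (b (.inr (.inl 0))) = 0 → u v = v) →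
      ∀ i : Fin 3, c ^ (i : ℕ) * u * (c ^ (i : ℕ))⁻¹ ∈ PW Q (Pc Q b i) := by
    intro u hu huf i
    refine mem_PW.2 ⟨(O Q).mul_mem ((O Q).mul_mem (hcO' i) hu) ((O Q).inv_mem (hcO' i)), fun x hx => ?_⟩
    have h1 := hPc i x hx
    show (c ^ (i : ℕ)) (u ((c ^ (i : ℕ))⁻¹ x)) = x
    rw [huf _ h1.1 h1.2]
    exact (c ^ (i : ℕ)).apply_symm_apply x
  let t : Fin 3 → V ≃ₗ[K] V := fun i => c ^ (i : ℕ) * τ ^ 2 * (c ^ (i : ℕ))⁻¹
  have ht : ∀ i, t i = c ^ (i : ℕ) * τ ^ 2 * (c ^ (i : ℕ))⁻¹ := fun _ => rfl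
  have ht0 : t 0 = τ ^ 2 := by rw [ht]; simp
  have htm : ∀ i, t i ∈ Om Q (Pc Q b i) := by
    intro i
    have h3 := comm_mem (hfix τ hτ hτf i) (hfix s hs hsf i)
    have h4 : t i = (c ^ (i : ℕ) * τ * (c ^ (i : ℕ))⁻¹) * (c ^ (i : ℕ) * s * (c ^ (i : ℕ))⁻¹) * (c ^ (i : ℕ) * τ * (c ^ (i : ℕ))⁻¹)⁻¹ *
        (c ^ (i : ℕ) * s * (c ^ (i : ℕ))⁻¹)⁻¹ := by
      have h5 : s * τ⁻¹ * s⁻¹ = τ := by
        rw [show s * τ⁻¹ * s⁻¹ = (s * τ * s⁻¹)⁻¹ by group, hsτ, inv_inv]
      have h6 : (c ^ (i : ℕ) * τ * (c ^ (i : ℕ))⁻¹) * (c ^ (i : ℕ) * s * (c ^ (i : ℕ))⁻¹) * (c ^ (i : ℕ) * τ * (c ^ (i : ℕ))⁻¹)⁻¹ *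
          (c ^ (i : ℕ) * s * (c ^ (i : ℕ))⁻¹)⁻¹ = c ^ (i : ℕ) * (τ * (s * τ⁻¹ * s⁻¹)) * (c ^ (i : ℕ))⁻¹ := by group
      rw [h6, h5, ht, _root_.sq]
    rw [h4]
    exact h3
  refine ⟨t, c, hcO, ?_, hcl, hcr, ?_, ?_, ?_, ?_, ?_, ?_, ?_⟩
  · rw [hc, equiv_pow, cyc_pow, equiv_one]
  · intro i
    rw [ht0]
  · intro i
    rw [map_Om (hcO' i)]
    congr 1
    rw [Pl, Pl, Submodule.map_span, Set.image_pair]
    have e1 := hcl i 0
    have e2 := hcr i 0
    rw [zero_add] at e1 e2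
    rw [← e1, ← e2]
    rfl
  · intro i
    have h3 : τ ^ (2 * n) = 1 := by
      rw [mul_comm, hn, ← hτo, pow_orderOf_eq_one]
    have h4 : t i = MulAut.conj (c ^ (i : ℕ)) (τ ^ 2) := rfl
    rw [h4, ← map_pow, ← pow_mul, h3, map_one]
  · intro i h3
    have h4 : t i = MulAut.conj (c ^ (i : ℕ)) (τ ^ 2) := rfl
    rw [h4, ← map_pow, ← pow_mul] at h3
    have h5 : τ ^ (2 * 2) = 1 := (MulAut.conj (c ^ (i : ℕ))).injective (by rw [h3, map_one])
    have h6 := Nat.le_of_dvd (by norm_num) (orderOf_dvd_of_pow_eq_one h5)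
    omega
  · intro i x hx
    exact comm_of_PW h h2 hβ0 hγ hx (Om_le_PW (htm i))
  · intro i X hX
    exact Om_anti hX (htm i)
  · intro i j hij
    refine Om_anti ?_ (htm j)
    rw [Pl, Submodule.span_le]
    rintro x (rfl | rfl)
    · exact ⟨h.orth _ _ (by simpa using hij), h.orth _ _ (by simp)⟩
    · exact ⟨h.orth _ _ (by simp), h.orth _ _ (by simpa using hij)⟩

end Seven

end Cfsg.Agent.H292.O8R
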