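import Cfsg.Agent.H292.O8R.Rot
import Cfsg.Agent.H466.O8R.Gs
import Cfsg.Agent.H885.O8R.Ext

/-!
# S3691, row `PΩ⁺₈(q)`, box `data_om`: the complete rotation part in `V ≃ₗ[K] V` (helper292)
-/

set_option autoImplicit false
set_option linter.unusedSectionVars false

namespace Cfsg.Agent.H292.O8R

open Module QuadraticMap Cfsg.Agent.LieClassical.OrthCore Cfsg.Agent.LieClassical.OrthTrans Cfsg.Agent.H466.O8R
  Cfsg.Agent.H36.Om7

/-- a nonsquare which is the sum of two squares -/
theorem exists_delta {K : Type*} [Field K] [Fintype K] (hodd : Odd (Fintype.card K)) :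
    ∃ δ : K, (∀ x y : K, x ^ 2 + (-δ) * y ^ 2 = 0 → x = 0 ∧ y = 0) ∧ ∃ x y : K, x ^ 2 + y ^ 2 = δ := by
  have h1 : ringChar K ≠ 2 := by
    intro h0
    have := FiniteField.even_card_iff_char_two.1 h0
    rw [Nat.odd_iff] at hodd
    omega
  obtain ⟨δ, hδ⟩ := FiniteField.exists_nonsquare h1
  refine ⟨δ, fun x y hxy => ?_, ?_⟩
  · have hy : y = 0 := by
      by_contra hy
      apply hδ
      refine ⟨x / y, ?_⟩
      field_simp
      linear_combination -hxy
    subst hy
    refine ⟨?_, rfl⟩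
    have : x ^ 2 = 0 := by linear_combination hxy
    exact pow_eq_zero_iff two_ne_zero |>.1 this
  · obtain ⟨x, y, h⟩ := FiniteField.exists_root_sum_quadratic (R := K) (f := Polynomial.X ^ 2) (g := Polynomial.X ^ 2 + Polynomial.C (-δ))
      (by rw [Polynomial.degree_X_pow]; rfl) (by rw [Polynomial.degree_X_pow_add_C (by norm_num)]; rfl) (Nat.odd_iff.1 hodd)
    refine ⟨x, y, ?_⟩
    simp only [Polynomial.eval_pow, Polynomial.eval_X, Polynomial.eval_add, Polynomial.eval_C] at h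
    linear_combination h

variable {K V : Type*} [Field K] [Fintype K] [AddCommGroup V] [Module K V] {Q : QuadraticForm K V} {u v : Fin 3 → V} {w : V}

/-- the vectors of the third basis -/
def rv (u v : Fin 3 → V) (w : V) (r s x y : K) : Fin 3 ⊕ Fin 3 ⊕ Unit → V :=
  Sum.elim ![w, av u v 1, av u v 2] (Sum.elim ![r • av u v 0 + s • bv u v 0, x • bv u v 1 + y • bv u v 2,
    (-y) • bv u v 1 + x • bv u v 2] (fun _ => s • av u v 0 + r • bv u v 0))

theorem exists_rv (h2 : (2 : K) ≠ 0) (hd : finrank K V = 7) (fr : Fr Q u v w) {r s x y δ : K} (hδ : δ ≠ 0)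
    (hrs : r ^ 2 - s ^ 2 = -δ) (hxy : x ^ 2 + y ^ 2 = δ) :
    ∃ b : Basis (Fin 3 ⊕ Fin 3 ⊕ Unit) K V, (∀ i, b i = rv u v w r s x y i) ∧ OB Q b (nm (-δ) δ) := by
  have : FiniteDimensional K V := Module.finite_of_finrank_pos (by omega)
  have hw : Q w = 1 := fr.w1
  have ha : ∀ i, Q (av u v i) = 1 := fun i => ov_norm fr (Sum.inr (Sum.inl i))
  have hb : ∀ i, Q (bv u v i) = -1 := fun i => ov_norm fr (Sum.inr (Sum.inr i))
  have wa : ∀ i, polar Q w (av u v i) = 0 := fun i => ov_orth fr (Sum.inl ()) (Sum.inr (Sum.inl i)) (by simp)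
  have aw : ∀ i, polar Q (av u v i) w = 0 := fun i => ov_orth fr (Sum.inr (Sum.inl i)) (Sum.inl ()) (by simp)
  have wb : ∀ i, polar Q w (bv u v i) = 0 := fun i => ov_orth fr (Sum.inl ()) (Sum.inr (Sum.inr i)) (by simp)
  have bw : ∀ i, polar Q (bv u v i) w = 0 := fun i => ov_orth fr (Sum.inr (Sum.inr i)) (Sum.inl ()) (by simp)
  have ab : ∀ i j, polar Q (av u v i) (bv u v j) = 0 := fun i j =>
    ov_orth fr (Sum.inr (Sum.inl i)) (Sum.inr (Sum.inr j)) (by simp)
  have ba : ∀ i j, polar Q (bv u v i) (av u v j) = 0 := fun i j =>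
    ov_orth fr (Sum.inr (Sum.inr i)) (Sum.inr (Sum.inl j)) (by simp)
  have aa : ∀ i j, polar Q (av u v i) (av u v j) = if i = j then 2 else 0 := by
    intro i j
    split_ifs with h
    · rw [h, polar_self', ha, mul_one]
    · exact ov_orth fr (Sum.inr (Sum.inl i)) (Sum.inr (Sum.inl j)) (by simpa using h)
  have bb : ∀ i j, polar Q (bv u v i) (bv u v j) = if i = j then -2 else 0 := by
    intro i j
    split_ifs with h
    · rw [h, polar_self', hb]; ring
    · exact ov_orth fr (Sum.inr (Sum.inr i)) (Sum.inr (Sum.inr j)) (by simpa using h)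
  have ww : polar Q w w = 2 := by rw [polar_self', hw, mul_one]
  refine exists_OB h2 (nm_ne (neg_ne_zero.2 hδ) hδ) (fun i => ?_) (fun i j hij => ?_) (by simp [hd])
  · rcases i with i | i | i
    · fin_cases i
      · exact hw
      · exact ha 1
      · exact ha 2
    · fin_cases i
      · show Q (r • av u v 0 + s • bv u v 0) = -δ
        rw [Q_add, QuadraticMap.map_smul, QuadraticMap.map_smul, polar_smul_left, polar_smul_right, ha, hb, ab]
        simp only [smul_eq_mul]
        linear_combination hrs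
      · show Q (x • bv u v 1 + y • bv u v 2) = -δ
        rw [Q_add, QuadraticMap.map_smul, QuadraticMap.map_smul, polar_smul_left, polar_smul_right, hb, hb, bb,
          if_neg (by decide)]
        simp only [smul_eq_mul]
        linear_combination -hxy
      · show Q ((-y) • bv u v 1 + x • bv u v 2) = -δ
        rw [Q_add, QuadraticMap.map_smul, QuadraticMap.map_smul, polar_smul_left, polar_smul_right, hb, hb, bb,
          if_neg (by decide)]
        simp only [smul_eq_mul]
        linear_combination -hxy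
    · show Q (s • av u v 0 + r • bv u v 0) = δ
      rw [Q_add, QuadraticMap.map_smul, QuadraticMap.map_smul, polar_smul_left, polar_smul_right, ha, hb, ab]
      simp only [smul_eq_mul]
      linear_combination -hrs
  · rcases i with i | i | i <;> rcases j with j | j | j <;> (try fin_cases i) <;> (try fin_cases j) <;>
    first
    | exact absurd rfl hij
    | (simp only [rv, Sum.elim_inl, Sum.elim_inr, Matrix.cons_val, Matrix.cons_val_zero, Matrix.cons_val_one, Fin.mk_one, Fin.zero_eta,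
        Fin.isValue, Fin.reduceFinMk, polar_add_left, polar_add_right,
        polar_smul_left, polar_smul_right, wa, aw, wb, bw, ab, ba, aa, bb, ww, smul_eq_mul]
       try simp
       try ring)

theorem isCompl (h2 : (2 : K) ≠ 0) {b : Basis (Fin 3 ⊕ Fin 3 ⊕ Unit) K V} {β γ : K} (h : OB Q b (nm β γ)) (hβ : β ≠ 0) (i : Fin 3) :
    IsCompl (Pc Q b i) (Pl b i) := by
  refine ⟨?_, ?_⟩
  · rw [Submodule.disjoint_def]
    intro x hx hx2
    obtain ⟨c, d, rfl⟩ := Submodule.mem_span_pair.1 hx2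
    obtain ⟨h3, h4⟩ := hx
    rw [polar_add_left, polar_smul_left, polar_smul_left, polar_self', h.nrm, h.orth (.inr (.inl i)) (.inl i) (by simp)] at h3
    rw [polar_add_left, polar_smul_left, polar_smul_left, polar_self', h.nrm, h.orth (.inl i) (.inr (.inl i)) (by simp)] at h4
    simp only [nm, smul_eq_mul, mul_zero, add_zero, zero_add, mul_one] at h3 h4
    have hc : c = 0 := (mul_eq_zero.1 h3).resolve_right h2
    have hd : d = 0 := (mul_eq_zero.1 h4).resolve_right (mul_ne_zero h2 hβ)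
    rw [hc, hd, zero_smul, zero_smul, add_zero]
  · rw [codisjoint_iff, sup_comm]
    exact sup_eq_top h i

theorem five_le (hd : finrank K V = 7) {b : Basis (Fin 3 ⊕ Fin 3 ⊕ Unit) K V} {β γ : K} (h : OB Q b (nm β γ)) (i : Fin 3) :
    5 ≤ finrank K (Pc Q b i) := by
  classical
  have : FiniteDimensional K V := Module.finite_of_finrank_pos (by omega)
  have h1 := Submodule.finrank_add_le_finrank_add_finrank (Pl b i) (Pc Q b i)
  rw [sup_eq_top h i, finrank_top, hd] at h1
  have h3 : finrank K (Pl b i) ≤ 2 := by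
    have h4 := finrank_span_finset_le_card (R := K) ({b (.inl i), b (.inr (.inl i))} : Finset V)
    rw [Finset.coe_insert, Finset.coe_singleton] at h4
    exact h4.trans Finset.card_le_two
  omega

/-- **the complete rotation part** -/
theorem rot_all (fr : Fr Q u v w) (hd : finrank K V = 7) (hG : Good Q) (hodd : Odd (Fintype.card K)) (h16 : 16 ≤ Fintype.card K)
    {n : ℕ} (hn : n * Nat.gcd 2 (Fintype.card K - 1) = Fintype.card K + 1) :
    ∃ (t : Fin 3 → V ≃ₗ[K] V) (L : Fin 3 → Subgroup (V ≃ₗ[K] V)) (A B : Subgroup (V ≃ₗ[K] V)) (c : V ≃ₗ[K] V),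
      c ∈ ⁅O Q, O Q⁆ ∧ (∀ i, t i ∈ ⁅O Q, O Q⁆) ∧ (∀ i, L i ≤ ⁅O Q, O Q⁆) ∧
      (∀ i, t i ^ n = 1) ∧ (∀ i, t i ^ 2 ≠ 1) ∧ (∀ i, ⁅L i, L i⁆ = L i) ∧
      (∀ i, ∀ x ∈ L i, x * t i = t i * x) ∧ (∀ i j, i ≠ j → t j ∈ L i) ∧
      (∀ i : Fin 3, t i = c ^ (i : ℕ) * t 0 * (c ^ (i : ℕ))⁻¹ ∧ L i = (L 0).map (MulAut.conj (c ^ (i : ℕ))).toMonoidHom) ∧
      A ≤ L 0 ∧ B ≤ L 0 ∧ (∀ a ∈ A, ∀ b ∈ B, a * b = b * a) ∧ ⁅A, A⁆ = A ∧ ⁅B, B⁆ = B ∧
      (∀ N : Subgroup (V ≃ₗ[K] V), N ≤ L 0 → (∀ g ∈ L 0, ∀ x ∈ N, g * x * g⁻¹ ∈ N) → A ≤ N → N = L 0) ∧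
      (∀ N : Subgroup (V ≃ₗ[K] V), N ≤ L 0 → (∀ g ∈ L 0, ∀ x ∈ N, g * x * g⁻¹ ∈ N) → B ≤ N → N = L 0) ∧
      t 0 ∈ MM Q u v w 0 0 ∧ MM Q u v w 0 0 ≤ L 1 ∧ MM Q u v w 0 0 ≤ L 2 := by
  have hfd : FiniteDimensional K V := Module.finite_of_finrank_pos (by omega)
  have h2 : (2 : K) ≠ 0 := by
    intro h0
    have h1 : ringChar K = 2 := by
      have := CharTwo.of_one_ne_zero_of_two_eq_zero (R := K) one_ne_zero h0
      exact ringChar.eq K 2
    have := FiniteField.even_card_iff_char_two.1 h1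
    rw [Nat.odd_iff] at hodd
    omega
  obtain ⟨δ, hδ, x, y, hxy⟩ := exists_delta hodd
  have hδ0 : δ ≠ 0 := by
    intro h0
    exact one_ne_zero (hδ 0 1 (by rw [h0]; ring)).2
  obtain ⟨r, s, hrs⟩ : ∃ r s : K, r ^ 2 - s ^ 2 = -δ := by
    refine ⟨(1 - δ) / 2, (-δ - 1) / 2, ?_⟩
    field_simp
    ring
  obtain ⟨b, hb, ob⟩ := exists_rv h2 hd fr hδ0 hrs hxy
  obtain ⟨t, c, hcO, hc3, -, -, hti, hLi, hpow, hsq, hcent, htX, htm⟩ := rot_seven hodd h16 hn ob hδ0 hδ
  have hcompl := fun i => isCompl h2 ob (neg_ne_zero.2 hδ0) i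
  have hperp : ∀ i, ∀ x ∈ Pl b i, ∀ y ∈ Pc Q b i, polar Q x y = 0 := fun i x hx y hy => polar_of_mem hx hy
  have hw : Q w = 1 := fr.w1
  have hav : ∀ i, av u v i = ov u v w (Sum.inr (Sum.inl i)) := fun i => rfl
  -- the two hyperbolic planes
  have htwo : Cfsg.Agent.H885.O8R.Two Q ![u 1, u 2] ![v 1, v 2] := by
    constructor
    · intro i; fin_cases i
      · exact fr.u0 1
      · exact fr.u0 2
    · intro i; fin_cases i
      · exact fr.v0 1
      · exact fr.v0 2
    · intro i; fin_cases i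
      · exact (fr.uv 1 1).trans (if_pos rfl)
      · exact (fr.uv 2 2).trans (if_pos rfl)
    · intro i j hij
      fin_cases i <;> fin_cases j
      · exact absurd rfl hij
      · exact (fr.uv 1 2).trans (if_neg (by decide))
      · exact (fr.uv 2 1).trans (if_neg (by decide))
      · exact absurd rfl hij
    · intro i j hij
      fin_cases i <;> fin_cases j
      · exact absurd rfl hij
      · exact fr.uu 1 2
      · exact fr.uu 2 1
      · exact absurd rfl hij
    · intro i j hij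
      fin_cases i <;> fin_cases j
      · exact absurd rfl hij
      · exact fr.vv 1 2
      · exact fr.vv 2 1
      · exact absurd rfl hij
  have vu : ∀ i j, polar Q (v i) (u j) = if i = j then 1 else 0 := fun i j => by
    rw [polar_comm, fr.uv]
    simp only [eq_comm]
  have ua : ∀ i, i ≠ 0 → polar Q (u i) (av u v 0) = 0 := fun i hi => by
    rw [av, polar_add_right, fr.uu, fr.uv, if_neg hi, add_zero]
  have ub : ∀ i, i ≠ 0 → polar Q (u i) (bv u v 0) = 0 := fun i hi => by
    rw [bv, polar_sub_right, fr.uu, fr.uv, if_neg hi, sub_zero]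
  have va : ∀ i, i ≠ 0 → polar Q (v i) (av u v 0) = 0 := fun i hi => by
    rw [av, polar_add_right, fr.vv, vu, if_neg hi, add_zero]
  have vb : ∀ i, i ≠ 0 → polar Q (v i) (bv u v 0) = 0 := fun i hi => by
    rw [bv, polar_sub_right, fr.vv, vu, if_neg hi, sub_zero]
  have b0 : b (.inl 0) = w := hb _
  have b1 : b (.inl 1) = av u v 1 := hb _
  have b2 : b (.inl 2) = av u v 2 := hb _
  have c0 : b (.inr (.inl 0)) = r • av u v 0 + s • bv u v 0 := hb _
  have c1 : b (.inr (.inl 1)) = x • bv u v 1 + y • bv u v 2 := hb _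
  have c2 : b (.inr (.inl 2)) = (-y) • bv u v 1 + x • bv u v 2 := hb _
  have d0 : b (.inr (.inr ())) = s • av u v 0 + r • bv u v 0 := hb _
  have hui : ∀ i, i ≠ 0 → u i ∈ Pc Q b 0 := fun i hi => by
    refine mem_Pc.2 ⟨by rw [b0]; exact fr.uw i, ?_⟩
    rw [c0, polar_add_right, polar_smul_right, polar_smul_right, ua i hi, ub i hi]
    simp
  have hvi : ∀ i, i ≠ 0 → v i ∈ Pc Q b 0 := fun i hi => by
    refine mem_Pc.2 ⟨by rw [b0]; exact fr.vw i, ?_⟩
    rw [c0, polar_add_right, polar_smul_right, polar_smul_right, va i hi, vb i hi]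
    simp
  obtain ⟨A, B, hA, hB, hAB, hAA, hBB, hAt, hBt⟩ := Cfsg.Agent.H885.O8R.exists_AB (by omega) hG.nondeg htwo (hcompl 0) (hperp 0)
    (five_le hd ob 0)
    (fun i => by
      fin_cases i
      · exact hui 1 (by decide)
      · exact hui 2 (by decide))
    (fun i => by
      fin_cases i
      · exact hvi 1 (by decide)
      · exact hvi 2 (by decide))
    (e := b (.inr (.inr ()))) (mem_Pc.2 ⟨ob.orth _ _ (by simp), ob.orth _ _ (by simp)⟩) (b.ne_zero _)
    (fun i => by
      fin_cases i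
      · constructor
        · show polar Q (u 1) _ = 0
          rw [d0, polar_add_right, polar_smul_right, polar_smul_right, ua 1 (by decide), ub 1 (by decide)]
          simp
        · show polar Q (v 1) _ = 0
          rw [d0, polar_add_right, polar_smul_right, polar_smul_right, va 1 (by decide), vb 1 (by decide)]
          simp
      · constructor
        · show polar Q (u 2) _ = 0
          rw [d0, polar_add_right, polar_smul_right, polar_smul_right, ua 2 (by decide), ub 2 (by decide)]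
          simp
        · show polar Q (v 2) _ = 0
          rw [d0, polar_add_right, polar_smul_right, polar_smul_right, va 2 (by decide), vb 2 (by decide)]
          simp)
  have hle : ∀ i, Pc Q b i ≤ ⊤ := fun i => le_top
  have htO : ∀ i, t i ∈ ⁅O Q, O Q⁆ := fun i => Om_le (htX i (Pc Q b i) le_rfl)
  have hMM : ∀ i, b (.inl i) ∈ pp Q (tr3 u v w 0 0) → b (.inr (.inl i)) ∈ pp Q (tr3 u v w 0 0) → MM Q u v w 0 0 ≤ Om Q (Pl b i) := by
    intro i h3 h4
    refine Om_anti ?_
    rw [Pl, Submodule.span_le]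
    rintro z (rfl | rfl)
    · exact h3
    · exact h4
  have haa : ∀ i j, i ≠ j → polar Q (av u v i) (av u v j) = 0 := fun i j hij =>
    ov_orth fr (Sum.inr (Sum.inl i)) (Sum.inr (Sum.inl j)) (by simpa using hij)
  have hbb : ∀ i j, i ≠ j → polar Q (bv u v i) (bv u v j) = 0 := fun i j hij =>
    ov_orth fr (Sum.inr (Sum.inr i)) (Sum.inr (Sum.inr j)) (by simpa using hij)
  have hab : ∀ i j, polar Q (av u v i) (bv u v j) = 0 := fun i j =>
    ov_orth fr (Sum.inr (Sum.inl i)) (Sum.inr (Sum.inr j)) (by simp)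
  have hba : ∀ i j, polar Q (bv u v i) (av u v j) = 0 := fun i j =>
    ov_orth fr (Sum.inr (Sum.inr i)) (Sum.inr (Sum.inl j)) (by simp)
  have hwa : ∀ i, polar Q w (av u v i) = 0 := fun i => ov_orth fr (Sum.inl ()) (Sum.inr (Sum.inl i)) (by simp)
  have hwb : ∀ i, polar Q w (bv u v i) = 0 := fun i => ov_orth fr (Sum.inl ()) (Sum.inr (Sum.inr i)) (by simp)
  have hpa : ∀ i, i ≠ 0 → av u v i ∈ pp Q (tr3 u v w 0 0) := by
    intro i hi
    rw [mem_pp]
    intro k
    fin_cases k
    · exact hwa i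
    · exact haa 0 i (Ne.symm hi)
    · exact hba 0 i
  have hpb : ∀ i, i ≠ 0 → bv u v i ∈ pp Q (tr3 u v w 0 0) := by
    intro i hi
    rw [mem_pp]
    intro k
    fin_cases k
    · exact hwb i
    · exact hab 0 i
    · exact hbb 0 i (Ne.symm hi)
  refine ⟨t, fun i => Om Q (Pl b i), A, B, c, Cfsg.Agent.H885.O8R.odd_mem hG hcO (by decide) hc3, htO, fun i => Om_le, hpow, hsq,
    fun i => Cfsg.Agent.H885.O8R.perfect_five hG.nondeg (hcompl i) (hperp i) (five_le hd ob i),
    fun i x hx => hcent i x (Om_le_PW hx), htm, fun i => ⟨hti i, hLi i⟩, hA, hB, hAB, hAA, hBB, hAt, hBt, ?_, ?_, ?_⟩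
  · refine htX 0 _ fun z hz => ?_
    obtain ⟨e1, e2, e3⟩ := mem_tr3 hz
    refine mem_Pc.2 ⟨by rw [b0, polar_comm]; exact e1, ?_⟩
    rw [c0, polar_comm, polar_add_left, polar_smul_left, polar_smul_left, e2, e3]
    simp
  · refine hMM 1 (by rw [b1]; exact hpa 1 (by decide)) ?_
    rw [c1]
    exact add_mem (Submodule.smul_mem _ _ (hpb 1 (by decide))) (Submodule.smul_mem _ _ (hpb 2 (by decide)))
  · refine hMM 2 (by rw [b2]; exact hpa 2 (by decide)) ?_
    rw [c2]
    exact add_mem (Submodule.smul_mem _ _ (hpb 1 (by decide))) (Submodule.smul_mem _ _ (hpb 2 (by decide)))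

end Cfsg.Agent.H292.O8R
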